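import Cfsg.Agent.SGn.Lift
import Cfsg.Agent.StdX.Cal4

/-!
# Standard subgroups with two classes of involutions, small models: the passage to `C(O) / O`
-/

set_option autoImplicit false

namespace Cfsg.Lib.SGn

open Subgroup Cfsg.Lib.Gold Cfsg.Lib.Trans Cfsg.Lib.StdSz Cfsg.Lib.StdW
open Cfsg.Lib.StdM (Cl Tr)
open Cfsg.Lib.StdX (Db Fm Mu Rl Dih)
open scoped commutatorElement

universe u

variable {G Ω : Type*} [Group G] [Group Ω] [Finite G] [Finite Ω] {Γ Γ0 T : Subgroup Ω} {z y : Ω} {n r : ℕ}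
  {A O B : Subgroup G} {ρ ρ' : G → Ω} {t : G}

omit [Finite Ω] in
open Lft StdM.Lift in
theorem exists_qt {G : Type u} [Group G] [Finite G] {A O : Subgroup G} {ρ : G → Ω} {t : G}
    (b : Bs Γ Γ0 T z y n r) (h : Mdl Γ Γ0 A ρ) (s : St A O t) {g a : G} (hg : g ∈ Cs O) (ha : a ∈ A)
    (a1 : a ≠ 1) (e1 : g * t * g⁻¹ = t * a) :
    ∃ (ht : t ∈ Cs O) (H : Type u) (_ : Group H) (_ : Finite H) (π : Cs O →* H) (A' : Subgroup H)
      (ρ' : H → Ω), Qt Γ Γ0 A O ρ ⟨t, ht⟩ π A' ρ' := by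
  have AO : A ≤ Cs O := le_centralizer_iff.1 (s.Ole.trans inf_le_left)
  have tO : t ∈ Cs O := StdSz.mem_Cs.2 fun o ho => (StdSz.mem_C1.1 (s.Ole ho).2).symm
  have hc : ∀ x : Cs O, ∀ o ∈ O.subgroupOf (Cs O), Commute x o := fun x o ho =>
    Subtype.ext (mem_centralizer_iff.1 x.2 o ho).symm
  have : (O.subgroupOf (Cs O)).Normal :=
    ⟨fun o ho x => by rwa [(hc x o ho).eq, mul_inv_cancel_right]⟩
  let π := QuotientGroup.mk' (O.subgroupOf (Cs O))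
  have hk : π.ker = O.subgroupOf (Cs O) := QuotientGroup.ker_mk' _
  have cen : ∀ x, ∀ o ∈ π.ker, Commute x o := fun x o ho => hc x o (hk.le ho)
  have odd : Odd (Nat.card π.ker) := by
    rw [hk, Solv.card_subgroupOf]; exact s.Oodd.of_dvd_nat (card_dvd_of_le inf_le_left)
  have surj : Function.Surjective π := QuotientGroup.mk'_surjective _
  let i : A →* Cs O := inclusion AO
  let τ : Cs O := ⟨t, tO⟩
  have ss : τ * τ = 1 := Subtype.ext s.tt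
  have tt : π τ * π τ = 1 := by rw [← map_mul, ss, map_one]
  have p1 : ∀ x : Cs O, π x = 1 ↔ (x : G) ∈ O := fun x => QuotientGroup.eq_one_iff x
  let r : A →* Ω := h.hom.comp (inclusion le_normalizer)
  have kr : ∀ x : A, π (i x) = 1 ↔ r x = 1 := fun x => (p1 _).trans
    ⟨fun e => (h.ker _ (le_normalizer x.2)).2 (s.Ole e).1,
      fun e => zO h s x.2 ((h.ker _ (le_normalizer x.2)).1 e)⟩
  have kr' : ∀ x x' : A, π (i x) = π (i x') ↔ r x = r x' := fun x x' => by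
    rw [← inv_mul_eq_one, ← inv_mul_eq_one (a := r x), ← map_inv, ← map_inv, ← map_inv, ← map_mul,
      ← map_mul, ← map_mul, kr]
  have pA : (⊤ : Subgroup A) ≤ ⁅⊤, ⊤⁆ := fun x _ => by
    obtain ⟨y, hy, q⟩ := (map_subtype_commutator A).ge (h.perf x.2)
    exact Subtype.ext q ▸ hy
  have pR : ∀ {H : Type u} [Group H] (f : A →* H), f.range ≤ ⁅f.range, f.range⁆ := fun f => by
    rw [MonoidHom.range_eq_map, ← map_commutator]
    exact map_mono pA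
  let φ : (π.comp i).range →* Ω := (π.comp i).rangeRestrict.liftOfSurjective
    (π.comp i).rangeRestrict_surjective ⟨r, fun x hx => (kr x).1 (congrArg Subtype.val hx)⟩
  have hφ : ∀ x : A, φ ((π.comp i).rangeRestrict x) = r x := fun x =>
    MonoidHom.liftOfRightInverse_comp_apply _ _ _ _ x
  have kφ : φ.ker = ⊥ := (eq_bot_iff_forall _).2 fun x hx => by
    obtain ⟨x, rfl⟩ := (π.comp i).rangeRestrict_surjective x
    exact Subtype.ext ((kr x).2 ((hφ x).symm.trans hx))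
  obtain ⟨r', m, hr'⟩ := exists_mdl b φ (le_antisymm (by
      rintro _ ⟨x, rfl⟩
      obtain ⟨x, rfl⟩ := (π.comp i).rangeRestrict_surjective x
      exact hφ x ▸ h.mem _ x.2) fun γ hγ =>
        let ⟨x, hx, e⟩ := h.surj γ hγ; ⟨_, (hφ ⟨x, hx⟩).trans e⟩)
    (pR _) (kφ ▸ bot_le) (by rw [kφ, card_bot]; exact odd_one)
  have lt : ∀ k : Cs O, Commute (π k) (π τ) → (k : G) ∈ C1 t := fun k hk => by
    have h3 : k * τ * k⁻¹ = τ := uniq cen odd (by rw [conj_mul, ss, mul_one, mul_inv_cancel]) ss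
      (by rw [map_mul, map_mul, map_inv, hk.eq, mul_inv_cancel_right])
    exact StdSz.mem_C1.2 (congrArg Subtype.val (mul_inv_eq_iff_eq_mul.1 h3))
  have a2 : a * a = 1 := by
    have h1 : t * a * (t * a) = 1 := by rw [← e1, conj_mul, s.tt, mul_one, mul_inv_cancel]
    rwa [mul_assoc, ← mul_assoc a, ← (StdSz.mem_Cs.1 s.tA a ha).eq, ← mul_assoc, ← mul_assoc, s.tt,
      one_mul] at h1
  have nm : ∀ k : Cs O, (k : G) ∈ Ns A → π k ∈ Ns (π.comp i).range := fun k hk => by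
    refine StdSz.mem_Ns ?_
    rintro _ ⟨c, rfl⟩
    refine ⟨⟨_, mem_normalizer_conj hk c.2⟩, ?_⟩
    rw [← map_inv, MonoidHom.comp_apply, MonoidHom.comp_apply, ← map_mul, ← map_mul]
    rfl
  have rr : ∀ c : A, r' (π (i c)) = ρ c := fun c => (hr' ((π.comp i).rangeRestrict c)).trans (hφ c)
  refine ⟨tO, _, inferInstance, inferInstance, π, (π.comp i).range, r', surj, p1,
    fun u => ⟨fun ⟨c, e⟩ => ⟨i c, c.2, e⟩, fun ⟨c, hc, e⟩ => ⟨⟨c, hc⟩, e⟩⟩, m,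
    ((eq_bot_iff_forall _).2 fun x hx => congrArg Subtype.val (mem_bot.1 (kφ.le (x := ⟨x, hx.1⟩)
      ((hr' ⟨x, hx.1⟩).symm.trans ((m.ker x (le_normalizer hx.1)).2 hx.2))))),
    ⟨tt, fun e => s.t1 (eq_one_of_odd_sq (odd_orderOf s.Oodd ((p1 τ).1 e)) s.tt),
      mem_centralizer_iff.2 (by
        rintro _ ⟨b, rfl⟩
        exact (Commute.map (Subtype.ext (mem_centralizer_iff.1 s.tA b b.2) : Commute (i b) τ) π).eq),
      fun k hk => by
        obtain ⟨k, rfl⟩ := surj k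
        exact nm k (s.cN (lt k (StdSz.mem_C1.1 hk))),
      bot_le, by rw [card_bot]; exact odd_one,
      fun k hk => by
        obtain ⟨k, rfl⟩ := surj k
        have k1 := lt k (StdSz.mem_C1.1 hk.2)
        have k2 := s.cN k1
        have k3 : (k : G) ∈ Cs A := (h.ker _ k2).1 (b.cen (h.memΓ _ k2) (StdSz.mem_Cs.2 fun γ hγ => by
          obtain ⟨c, hc, rfl⟩ := h.surj γ hγ
          refine commute_of_conj_eq ?_
          rw [← h.conj k2 (le_normalizer hc)]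
          refine (kr' ⟨_, mem_normalizer_conj k2 hc⟩ ⟨c, hc⟩).1 ?_
          rw [show i ⟨_, mem_normalizer_conj k2 hc⟩ = k * i ⟨c, hc⟩ * k⁻¹ from rfl, map_mul, map_mul,
            map_inv, (StdSz.mem_Cs.1 hk.1 (π (i ⟨c, hc⟩)) ⟨_, rfl⟩).eq, mul_inv_cancel_right]))
        rcases s.dec k ⟨k3, k1⟩ with e | ⟨o, ho, e⟩
        · exact .inl ((p1 k).2 e)
        · have ho' : o ∈ Cs O := (mul_mem_cancel_left tO).1 (e ▸ k.2)
          exact .inr ⟨1, one_mem _, by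
            rw [show k = τ * ⟨o, ho'⟩ from Subtype.ext e, map_mul, (p1 ⟨o, ho'⟩).2 ho]⟩,
      by
        rintro _ ⟨c, rfl⟩ hc
        obtain ⟨k, q⟩ := isConj_iff.1 hc
        obtain ⟨k, rfl⟩ := surj k
        have h3 : r (c * c) = 1 := (kr _).1 (by
          rw [map_mul, map_mul]
          change π.comp i c * π.comp i c = 1
          rw [← q, conj_mul, tt, mul_one, mul_inv_cancel])
        obtain ⟨d, hd, d2, e⟩ := h.lift_inv (h.mem _ c.2) (by rwa [map_mul] at h3)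
        have h4 : i ⟨d, hd⟩ = k * τ * k⁻¹ := uniq cen odd (Subtype.ext d2)
          (by rw [conj_mul, ss, mul_one, mul_inv_cancel])
          (by rw [map_mul, map_mul, map_inv, q]; exact (kr' ⟨d, hd⟩ c).2 e)
        exact s.nc d hd (isConj_iff.2 ⟨k, (congrArg Subtype.val h4).symm⟩),
      ⟨_, ⟨⟨a, ha⟩, rfl⟩, fun e => a1 (eq_one_of_odd_sq (odd_orderOf s.Oodd ((p1 _).1 e)) a2),
        isConj_iff.2 ⟨π ⟨g, hg⟩, by
          rw [← map_inv, ← map_mul, ← map_mul, MonoidHom.comp_apply, ← map_mul]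
          exact congrArg π (Subtype.ext e1)⟩⟩⟩, fun x hx => ?_,
    fun x hx => StdSz.mem_C1.1 (lt x hx)⟩
  have x1 := nm x hx
  refine inv_mul_eq_one.1 (b.cen (mul_mem (inv_mem (m.memΓ _ x1)) (h.memΓ _ hx))
    (StdSz.mem_Cs.2 fun γ hγ => ?_))
  obtain ⟨c, hc, rfl⟩ := h.surj γ hγ
  have e2 : r' (π x) * ρ c * (r' (π x))⁻¹ = ρ x * ρ c * (ρ x)⁻¹ := by
    rw [← h.conj hx (le_normalizer hc), ← rr ⟨c, hc⟩,
      ← m.conj x1 (le_normalizer (show π (i ⟨c, hc⟩) ∈ (π.comp i).range from ⟨_, rfl⟩)),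
      ← rr ⟨_, mem_normalizer_conj hx hc⟩, ← map_inv, ← map_mul, ← map_mul]
    rfl
  refine commute_of_conj_eq ?_
  calc _ = (r' (π x))⁻¹ * (ρ x * ρ c * (ρ x)⁻¹) * r' (π x) := by group
    _ = _ := by rw [← e2]; group

namespace Qt

variable {H : Type*} [Group H] {t : Cs O} {π : Cs O →* H} {A' : Subgroup H} {ρ' : H → Ω}
  (q : Qt Γ Γ0 A O ρ t π A' ρ')
include q
omit [Finite Ω]

omit [Finite G] in
theorem ker_cen (x : Cs O) : ∀ o ∈ π.ker, Commute x o := fun o ho =>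
  Subtype.ext (mem_centralizer_iff.1 x.2 o ((q.kr o).1 ho)).symm

omit [Finite G] in
theorem ker_odd (s : St A O t) : Odd (Nat.card π.ker) := by
  rw [show π.ker = O.subgroupOf (Cs O) from Subgroup.ext q.kr, Solv.card_subgroupOf]
  exact s.Oodd.of_dvd_nat (card_dvd_of_le inf_le_left)

theorem up (h : Mdl Γ Γ0 A ρ) (s : St A O t) (w : Wr A' (π t)) :
    ∃ B, Sw B (t : G) ∧ (∀ x ∈ B, dg (t : G) x ∈ A) ∧ (∀ a ∈ A, ∃ x ∈ B, dg (t : G) x = a) ∧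
      B ≤ ⁅B, B⁆ ∧ B ≤ Cs O := by
  obtain ⟨B', w, h1, h2⟩ := w
  have AO : A ≤ Cs O := le_centralizer_iff.1 (s.Ole.trans inf_le_left)
  have pA : (⊤ : Subgroup A) ≤ ⁅⊤, ⊤⁆ := fun x _ => by
    obtain ⟨y, hy, q⟩ := (map_subtype_commutator A).ge (h.perf x.2)
    exact Subtype.ext q ▸ hy
  obtain ⟨B, w', h3, h4, h5⟩ := StdM.Lift.up q.ker_cen (A := (inclusion AO).range) q.sj
    (Subtype.ext s.tt) (by rw [MonoidHom.range_eq_map, ← map_commutator]; exact map_mono pA) w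
    (fun x hx => let ⟨b, hb, e⟩ := (q.img _).1 (h1 x hx); ⟨b, ⟨⟨b, hb⟩, rfl⟩, e⟩) (by
      rintro _ ⟨b, rfl⟩
      exact h2 _ ((q.img _).2 ⟨_, b.2, rfl⟩))
  refine ⟨B.map (Cs O).subtype, ⟨s.tt, ?_⟩, ?_, fun b hb => ?_,
    by rw [← map_commutator]; exact map_mono h5, map_subtype_le B⟩
  · rintro _ ⟨x, hx, rfl⟩
    refine mem_centralizer_iff.2 ?_
    rintro _ ⟨_, ⟨y, hy, rfl⟩, rfl⟩
    exact congrArg Subtype.val (w'.commute hx hy).symm.eq
  · rintro _ ⟨x, hx, rfl⟩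
    obtain ⟨b, q⟩ := h3 x hx
    exact (congrArg Subtype.val q).subst b.2
  · obtain ⟨x, hx, q⟩ := h4 _ ⟨⟨b, hb⟩, rfl⟩
    exact ⟨x, ⟨x, hx, rfl⟩, congrArg Subtype.val q⟩

omit [Finite G] in
theorem lift_inv (s : St A O t) {u : H} (u2 : u * u = 1) : ∃ x : Cs O, x * x = 1 ∧ π x = u := by
  obtain ⟨x, rfl⟩ := q.sj u
  obtain ⟨k, hk⟩ := q.ker_odd s
  have h1 : (x * x) ^ (2 * k + 1) = 1 := by
    rw [← hk]
    exact congrArg Subtype.val (pow_card_eq_one' (x := (⟨x * x, by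
      rw [MonoidHom.mem_ker, map_mul, u2]⟩ : π.ker)))
  refine ⟨x ^ (2 * k + 1), by rw [← (Commute.refl x).mul_pow, h1], ?_⟩
  rw [map_pow, pow_succ, pow_mul, pow_two, u2, one_pow, one_mul]

theorem inj_inv (s : St A O t) {x x' : Cs O} (x2 : x * x = 1) (x2' : x' * x' = 1)
    (e : π x = π x') : x = x' :=
  StdM.Lift.uniq q.ker_cen (q.ker_odd s) x2 x2' e

theorem lift_sub (s : St A O t) {V : Subgroup H} (hV : IsPGroup 2 V) :
    ∃ U : Subgroup (Cs O), IsPGroup 2 U ∧ Nat.card U = Nat.card V ∧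
      ∀ x, x ∈ U ↔ π x ∈ V ∧ ∃ k, x ^ 2 ^ k = 1 := by
  have : Fact (Nat.Prime 2) := ⟨Nat.prime_two⟩
  have : Finite H := Finite.of_surjective π q.sj
  obtain ⟨U, hU⟩ := exists_isSylowIn (p := 2) (V.comap π)
  have h1 := hU.map π
  rw [map_comap_eq_self_of_surjective q.sj] at h1
  have h2 : V = U.map π := h1.eq_of_le hV h1.le le_rfl
  have p2 : ∀ x ∈ U, ∃ k, x ^ 2 ^ k = 1 := fun x hx =>
    let ⟨k, e⟩ := hU.isPGroup ⟨x, hx⟩; ⟨k, congrArg Subtype.val e⟩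
  refine ⟨U, hU.isPGroup, ?_, fun x => ⟨fun hx => ⟨hU.le hx, p2 x hx⟩, fun ⟨hx, k, e⟩ => ?_⟩⟩
  · rw [h2]
    refine (Nat.card_congr (Equiv.ofBijective (π.subgroupMap U)
      ⟨(injective_iff_map_eq_one _).2 fun x hx => ?_, π.subgroupMap_surjective U⟩))
    obtain ⟨k, e⟩ := p2 x x.2
    exact Subtype.ext (eq_one_of_odd_two (k := k) (odd_orderOf (q.ker_odd s)
      (show (x : Cs O) ∈ π.ker from congrArg Subtype.val hx)) e)
  · obtain ⟨c, hc, e1⟩ := hU.exists_cj_le (Q := zpowers x) (fun ⟨_, j, rfl⟩ => ⟨k, Subtype.ext (by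
      change (x ^ j) ^ 2 ^ k = 1
      rw [← zpow_natCast, ← zpow_mul, mul_comm, zpow_mul, zpow_natCast, e, one_zpow])⟩)
      (zpowers_le.2 hx)
    obtain ⟨d, hd, e2⟩ := h2.le hc
    have h3 : d⁻¹ * c ∈ π.ker := by rw [MonoidHom.mem_ker, map_mul, map_inv, e2, inv_mul_cancel]
    have h4 := mul_mem (mul_mem (inv_mem hd) (e1 (conj_mem_cj.2 (mem_zpowers x)))) hd
    rwa [show d⁻¹ * (c * x * c⁻¹) * d = d⁻¹ * c * x * (d⁻¹ * c)⁻¹ by group,
      conj_eq_of_commute (q.ker_cen x _ h3).symm] at h4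

end Qt

section
variable {ι v : Ω → G} (F : Fm Γ Γ0 z A ρ t ι v)
include F
omit [Finite G] [Finite Ω]

theorem rl_refl {a : Ω} (h : Cl Γ0 z a) : Rl Γ0 z t v a a :=
  ⟨h, h, by rw [F.tvt h]; exact (F.va h).mul_right (Commute.refl _)⟩

theorem rl_com {a b : Ω} (ha : Cl Γ0 z a) (hb : Cl Γ0 z b) (c : Commute a b)
    (h : Commute (v a) (v b)) : Rl Γ0 z t v a b :=
  ⟨ha, hb, by rw [F.tvt hb]; exact (F.vc ha (F.mem hb) c.symm).mul_right h⟩

theorem rl_mu {a b : Ω} (h : Mu Γ0 z v a b) : Rl Γ0 z t v a b := rl_com F h.l h.r h.c (F.comm h)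

theorem rl_conj {a b g : Ω} (h : Rl Γ0 z t v a b) (hg : g ∈ Γ0) :
    Rl Γ0 z t v (g * a * g⁻¹) (g * b * g⁻¹) := by
  refine ⟨h.l.conj hg, h.r.conj hg, ?_⟩
  rw [F.eqv h.l hg, F.eqv h.r hg,
    show t * (ι g * v b * (ι g)⁻¹) * t⁻¹ = t * ι g * v b * (t * ι g)⁻¹ by group, (F.tι hg).eq,
    show ι g * t * v b * (ι g * t)⁻¹ = ι g * (t * v b * t⁻¹) * (ι g)⁻¹ by group]
  exact commute_conj h.e _

theorem rl_tri {a x y : Ω} (h1 : Rl Γ0 z t v a x) (h2 : Rl Γ0 z t v a y) (h3 : Rl Γ0 z t v x y) :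
    Rl Γ0 z t v a (x * y * x) := by
  have e : x * y * x = x * y * x⁻¹ := by rw [DaP.inv2 (F.a2 h1.r)]
  refine ⟨h1.l, e ▸ h2.r.conj (F.mem h1.r), ?_⟩
  rw [e, F.eqv h2.r (F.mem h1.r), ← F.dg_v h1.r, dg_def,
    show v x * (t * v x * t⁻¹) * v y * (v x * (t * v x * t⁻¹))⁻¹ =
      v x * (t * v x * t⁻¹ * v y * (t * v x * t⁻¹)⁻¹) * (v x)⁻¹ by group,
    conj_eq_of_commute (F.rl_symm h3).e.symm,
    show t * (v x * v y * (v x)⁻¹) * t⁻¹ =
      t * v x * t⁻¹ * (t * v y * t⁻¹) * (t * v x * t⁻¹)⁻¹ by group]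
  exact (h1.e.mul_right h2.e).mul_right h1.e.inv_right

theorem wr_of_rl {I : Set Ω} (gen : Γ0 ≤ closure I) (rel : ∀ i ∈ I, ∀ j ∈ I, Rl Γ0 z t v i j) :
    Wr A t := by
  have w : Sw (closure (v '' I)) t := ⟨F.s.tt, (closure_le _).2 (by
    rintro _ ⟨i, hi, rfl⟩
    refine StdSz.mem_Cs.2 fun x hx =>
      (StdSz.mem_C1.1 (cj_le_iff_le_cj_inv.2 ((closure_le _).2 ?_) hx)).symm
    rintro _ ⟨j, hj, rfl⟩
    exact mem_cj_inv.2 (StdSz.mem_C1.2 (rel i hi j hj).e.symm))⟩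
  refine ⟨_, w, fun x hx => (w.mem_pre.1 ((closure_le (w.pre A)).2 ?_ hx)).2, fun a ha => ?_⟩
  · rintro _ ⟨i, hi, rfl⟩
    exact w.mem_pre.2 ⟨subset_closure ⟨i, hi, rfl⟩,
      (F.dg_v (rel i hi i hi).l).symm ▸ F.ιA (F.mem (rel i hi i hi).l)⟩
  · have h1 : ∀ γ ∈ closure I, γ ∈ Γ0 ∧ ι γ ∈ w.hom.range := fun γ hγ => by
      induction hγ using closure_induction with
      | mem i hi => exact ⟨F.mem (rel i hi i hi).l,
          w.mem_range.2 ⟨_, subset_closure ⟨i, hi, rfl⟩, F.dg_v (rel i hi i hi).l⟩⟩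
      | one => exact ⟨one_mem _, F.ι_one.symm ▸ one_mem _⟩
      | mul x y _ _ hx hy =>
        exact ⟨mul_mem hx.1 hy.1, (F.ι_mul hx.1 hy.1).symm ▸ mul_mem hx.2 hy.2⟩
      | inv x _ hx => exact ⟨inv_mem hx.1, (F.ι_inv hx.1).symm ▸ inv_mem hx.2⟩
    exact w.mem_range.1 (F.ι_ρ ha ▸ (h1 _ (gen (F.h.mem a ha))).2)

end

end Cfsg.Lib.SGn
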